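import Cfsg.Agent.H475.KGL.Rows
import Cfsg.Agent.S4959
import Cfsg.Agent.S4956

/-!
# KGL, T1: a real vector gives the bound (helper354)
-/

set_option autoImplicit false

namespace Cfsg.Agent.H354.KGL.T1

open Cfsg.Agent.H475.KGL Subgroup

universe v

section

variable {p : ℕ} [Fact p.Prime] {V : Type v} [AddCommGroup V] [Module (ZMod p) V]

/-- the action of `G` on `Multiplicative V` -/
def act (G : Subgroup (V ≃ₗ[ZMod p] V)) : G →* MulAut (Multiplicative V) where
  toFun g := AddEquiv.toMultiplicative (g : V ≃ₗ[ZMod p] V).toAddEquiv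
  map_one' := rfl
  map_mul' _ _ := rfl

theorem act_apply (G : Subgroup (V ≃ₗ[ZMod p] V)) (g : G) (v : V) :
    act G g (Multiplicative.ofAdd v) = Multiplicative.ofAdd ((g : V ≃ₗ[ZMod p] V) v) := rfl

/-- the semidirect product -/
abbrev SD (G : Subgroup (V ≃ₗ[ZMod p] V)) := Multiplicative V ⋊[act G] G

/-- the normal subgroup -/
abbrev VV (G : Subgroup (V ≃ₗ[ZMod p] V)) : Subgroup (SD G) :=
  (SemidirectProduct.inl : Multiplicative V →* SD G).range

/-- the complement -/
abbrev GG (G : Subgroup (V ≃ₗ[ZMod p] V)) : Subgroup (SD G) :=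
  (SemidirectProduct.inr : G →* SD G).range

variable (G : Subgroup (V ≃ₗ[ZMod p] V))

/-- the element `v` of the semidirect product -/
def ι (v : V) : SD G := SemidirectProduct.inl (Multiplicative.ofAdd v)

theorem ι_mem (v : V) : ι G v ∈ VV G := ⟨_, rfl⟩

theorem mem_VV {x : SD G} : x ∈ VV G ↔ ∃ v : V, x = ι G v :=
  ⟨fun ⟨a, ha⟩ => ⟨a.toAdd, ha.symm⟩, fun ⟨v, hv⟩ => hv ▸ ι_mem G v⟩

theorem ι_inj {v w : V} (h : ι G v = ι G w) : v = w :=
  Multiplicative.ofAdd.injective (SemidirectProduct.inl_injective h)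

theorem ι_zero : ι G 0 = 1 := map_one SemidirectProduct.inl

theorem ι_add (v w : V) : ι G (v + w) = ι G v * ι G w :=
  map_mul (SemidirectProduct.inl : Multiplicative V →* SD G) _ _

theorem left_ι (v : V) : Multiplicative.toAdd (ι G v).left = v := rfl

theorem conj_ι (g : G) (v : V) :
    (SemidirectProduct.inr g : SD G) * ι G v * (SemidirectProduct.inr g)⁻¹ =
      ι G ((g : V ≃ₗ[ZMod p] V) v) := by
  rw [ι, ← map_inv, ← SemidirectProduct.inl_aut, act_apply]
  rfl

theorem comm_of_fix (k : G) (u : V) (h : (k : V ≃ₗ[ZMod p] V) u = u) :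
    (SemidirectProduct.inr k : SD G) ∈ centralizer ({ι G u} : Set (SD G)) := by
  rw [mem_centralizer_iff]
  intro y hy
  rw [Set.mem_singleton_iff.1 hy, eq_comm, ← mul_inv_eq_iff_eq_mul, conj_ι, h]

instance : (VV G).Normal := by
  have : VV G = (SemidirectProduct.rightHom : SD G →* G).ker :=
    SemidirectProduct.range_inl_eq_ker_rightHom
  rw [this]
  infer_instance

theorem isCompl : IsComplement' (VV G) (GG G) := by
  refine isComplement'_of_disjoint_and_mul_eq_univ ?_ ?_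
  · rw [disjoint_iff, eq_bot_iff]
    rintro x ⟨⟨a, rfl⟩, ⟨b, hb⟩⟩
    have h1 : (SemidirectProduct.inr b : SD G).right = (SemidirectProduct.inl a : SD G).right := by
      rw [hb]
    rw [SemidirectProduct.right_inl, SemidirectProduct.right_inr] at h1
    rw [mem_bot, ← hb, h1, map_one]
  · rw [Set.eq_univ_iff_forall]
    intro x
    rw [← SemidirectProduct.inl_left_mul_inr_right x]
    exact Set.mul_mem_mul ⟨_, rfl⟩ ⟨_, rfl⟩

theorem VV_exp : ∀ v ∈ VV G, v ^ p = 1 := by
  intro x hx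
  obtain ⟨v, rfl⟩ := (mem_VV G).1 hx
  have h : ∀ n : ℕ, ι G v ^ n = ι G (n • v) := by
    intro n
    induction n with
    | zero => rw [pow_zero, zero_smul, ι_zero]
    | succ n ih => rw [pow_succ, ih, add_smul, one_smul, ι_add]
  rw [h, ← ι_zero G]
  congr 1
  rw [← Nat.cast_smul_eq_nsmul (ZMod p), ZMod.natCast_self, zero_smul]

theorem VV_comm : ∀ a ∈ VV G, ∀ b ∈ VV G, a * b = b * a := by
  rintro _ ⟨a, rfl⟩ _ ⟨b, rfl⟩
  rw [← map_mul, ← map_mul, mul_comm]

theorem VV_self : centralizer (VV G : Set (SD G)) = VV G := by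
  apply le_antisymm
  · intro x hx
    rw [mem_centralizer_iff] at hx
    have h1 : x.right = 1 := by
      apply Subtype.ext
      apply LinearEquiv.ext
      intro v
      have h2 := hx (ι G v) (ι_mem G v)
      have h3 : (SemidirectProduct.inr x.right : SD G) * ι G v *
          (SemidirectProduct.inr x.right)⁻¹ = ι G v := by
        have h4 : (SemidirectProduct.inr x.right : SD G) =
            (SemidirectProduct.inl x.left)⁻¹ * x := by
          rw [eq_inv_mul_iff_mul_eq, SemidirectProduct.inl_left_mul_inr_right]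
        have h5 : (SemidirectProduct.inl x.left : SD G)⁻¹ * ι G v * SemidirectProduct.inl x.left =
            ι G v := by
          rw [mul_assoc, VV_comm G _ (ι_mem G v) _ ⟨_, rfl⟩, ← mul_assoc, inv_mul_cancel, one_mul]
        rw [h4, mul_inv_rev, inv_inv]
        calc (SemidirectProduct.inl x.left)⁻¹ * x * ι G v * (x⁻¹ * SemidirectProduct.inl x.left)
            = (SemidirectProduct.inl x.left)⁻¹ * (x * ι G v * x⁻¹) *
                SemidirectProduct.inl x.left := by group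
          _ = (SemidirectProduct.inl x.left)⁻¹ * ι G v * SemidirectProduct.inl x.left := by
                rw [← h2, mul_inv_cancel_right]
          _ = ι G v := h5
      rw [conj_ι] at h3
      exact ι_inj G h3
    refine ⟨x.left, ?_⟩
    conv_rhs => rw [← SemidirectProduct.inl_left_mul_inr_right x]
    rw [h1, map_one, mul_one]
  · intro x hx
    rw [mem_centralizer_iff]
    intro y hy
    exact VV_comm G y hy x hx

theorem card_VV : Nat.card (VV G) = Nat.card V := by
  rw [Nat.card_congr (MonoidHom.ofInjective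
    (SemidirectProduct.inl_injective : Function.Injective
      (SemidirectProduct.inl : Multiplicative V →* SD G))).toEquiv.symm]
  exact Nat.card_congr Multiplicative.toAdd

theorem card_GG : Nat.card (GG G) = Nat.card G :=
  Nat.card_congr (MonoidHom.ofInjective
    (SemidirectProduct.inr_injective : Function.Injective
      (SemidirectProduct.inr : G →* SD G))).toEquiv.symm

theorem index_VV : (VV G).index = Nat.card G := by
  rw [(isCompl G).symm.index_eq_card, card_GG]

/-- `k(V G) ≤ |V|`. -/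
theorem card_le [Finite V] (hG : ¬ p ∣ Nat.card G) (h : RV G) :
    Nat.card (ConjClasses (SD G)) ≤ Nat.card V := by
  obtain ⟨w, U, β, hU, h1, h2, h3, h4, h5, h6⟩ := h
  have : Finite (V ≃ₗ[ZMod p] V) :=
    Finite.of_injective (fun e : V ≃ₗ[ZMod p] V => (e : V → V)) DFunLike.coe_injective
  have : Finite G := inferInstance
  have : Finite (SD G) := Finite.of_injective (fun x : SD G => (x.left, x.right)) (by
    intro x y hxy
    rw [Prod.mk.injEq] at hxy
    exact SemidirectProduct.ext hxy.1 hxy.2)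
  let UU : Subgroup (SD G) :=
    { carrier := {x | ∃ u ∈ U, x = ι G u}
      one_mem' := ⟨0, U.zero_mem, (ι_zero G).symm⟩
      mul_mem' := by
        rintro _ _ ⟨a, ha, rfl⟩ ⟨b, hb, rfl⟩
        exact ⟨a + b, U.add_mem ha hb, (ι_add G a b).symm⟩
      inv_mem' := by
        rintro _ ⟨a, ha, rfl⟩
        refine ⟨-a, U.neg_mem ha, ?_⟩
        rw [inv_eq_iff_mul_eq_one, ← ι_add, add_neg_cancel, ι_zero] }
  have hmem : ∀ x, x ∈ UU ↔ ∃ u ∈ U, x = ι G u := fun x => Iff.rfl
  have key := Cfsg.Agent.S4959.result p (VV G) (VV_exp G) (by rw [index_VV]; exact hG) (VV_self G)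
    (GG G) (isCompl G) (ι G w) (ι_mem G w) UU (by
      rintro x ⟨u, hu, rfl⟩
      exact ι_mem G u) (by
      rintro _ ⟨g, rfl⟩ hg x ⟨u, hu, rfl⟩
      rw [conj_ι] at hg ⊢
      exact ⟨_, h1 g g.2 (ι_inj G hg) u hu, rfl⟩) (by
      rintro _ ⟨g, rfl⟩ hg hg2
      rw [conj_ι] at hg
      have : (g : V ≃ₗ[ZMod p] V) = 1 := by
        refine h2 g g.2 (ι_inj G hg) fun u hu => ?_
        have h7 := hg2 (ι G u) ⟨u, hu, rfl⟩
        rw [conj_ι] at h7
        exact ι_inj G h7
      have h8 : g = 1 := Subtype.ext this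
      rw [h8, map_one])
    (fun x y => β (Multiplicative.toAdd x.left) (Multiplicative.toAdd y.left)) (by
      rintro x ⟨u, hu, rfl⟩ y ⟨u', hu', rfl⟩ z ⟨t, ht, rfl⟩
      rw [← ι_add, left_ι, left_ι, left_ι, left_ι]
      exact h3 u hu u' hu' t ht) (by
      rintro x ⟨u, hu, rfl⟩ y ⟨u', hu', rfl⟩ z ⟨t, ht, rfl⟩
      rw [← ι_add, left_ι, left_ι, left_ι, left_ι]
      exact h4 u hu u' hu' t ht) (by
      rintro _ ⟨g, rfl⟩ hg x ⟨u, hu, rfl⟩ y ⟨t, ht, rfl⟩
      rw [conj_ι] at hg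
      rw [conj_ι, conj_ι, left_ι, left_ι, left_ι, left_ι]
      exact h5 g g.2 (ι_inj G hg) u hu t ht) (by
      rintro x ⟨u, hu, rfl⟩ hx
      rw [h6 u hu fun t ht => ?_, ι_zero]
      have h7 := hx (ι G t) ⟨t, ht, rfl⟩
      rw [left_ι, left_ι] at h7
      exact h7)
  rw [card_VV] at key
  exact key

theorem eq_bot_of_kc_eq_one {X : Type*} [Group X] (A : Subgroup X) (h : kc A = 1) : A = ⊥ := by
  rw [eq_bot_iff]
  intro a ha
  have h1 : Subsingleton (ConjClasses A) := (Nat.card_eq_one_iff_unique.1 h).1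
  have h2 : ConjClasses.mk (⟨a, ha⟩ : A) = ConjClasses.mk (1 : A) := Subsingleton.elim _ _
  rw [ConjClasses.mk_eq_mk_iff_isConj, isConj_comm, isConj_one_right] at h2
  rw [mem_bot]
  exact congrArg Subtype.val h2

theorem kc_pos {X : Type*} [Group X] [Finite X] (A : Subgroup X) : 1 ≤ kc A := by
  have : Finite A := inferInstance
  have : Nonempty (ConjClasses A) := ⟨ConjClasses.mk 1⟩
  exact Nat.card_pos

theorem kc_congr {X Y : Type*} [Group X] [Group Y] (e : X ≃* Y) : kc X = kc Y :=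
  Nat.card_congr ⟨ConjClasses.map e.toMonoidHom, ConjClasses.map e.symm.toMonoidHom, by
    intro c
    obtain ⟨a, rfl⟩ := ConjClasses.exists_rep c
    change ConjClasses.mk (e.symm (e a)) = ConjClasses.mk a
    rw [e.symm_apply_apply], by
    intro c
    obtain ⟨a, rfl⟩ := ConjClasses.exists_rep c
    change ConjClasses.mk (e (e.symm a)) = ConjClasses.mk a
    rw [e.apply_symm_apply]⟩

end

variable {p : ℕ} [Fact p.Prime] {V : Type*} [AddCommGroup V] [Module (ZMod p) V] [Finite V]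
  [Nontrivial V]

/-- `k(V G) ≤ |V|` implies `k(G) ≤ |V| - 1`, with equality only if `G` is regular. -/
theorem bd_of_le (G : Subgroup (V ≃ₗ[ZMod p] V)) (hG : ¬ p ∣ Nat.card G)
    (key : Nat.card (ConjClasses (SD G)) ≤ Nat.card V) :
    kc G ≤ Nat.card V - 1 ∧ (kc G = Nat.card V - 1 → Reg G) := by
  classical
  have : Finite (V ≃ₗ[ZMod p] V) :=
    Finite.of_injective (fun e : V ≃ₗ[ZMod p] V => (e : V → V)) DFunLike.coe_injective
  have : Finite G := inferInstance
  have : Finite (SD G) := Finite.of_injective (fun x : SD G => (x.left, x.right)) (by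
    intro x y hxy
    rw [Prod.mk.injEq] at hxy
    exact SemidirectProduct.ext hxy.1 hxy.2)
  have hcop : (Nat.card (VV G)).Coprime (Nat.card (GG G)) := by
    rw [card_VV, card_GG]
    have hp : p.Prime := Fact.out
    have : Module.Finite (ZMod p) V := Module.Finite.of_finite
    rw [Module.natCard_eq_pow_finrank (K := ZMod p) (V := V), Nat.card_zmod]
    exact Nat.Coprime.pow_left _ ((Nat.Prime.coprime_iff_not_dvd hp).2 hG)
  -- orbit representatives
  let Ω := MulAction.orbitRel.Quotient G V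
  have hfin : Finite Ω := Quotient.finite _
  have : Fintype Ω := Fintype.ofFinite Ω
  let rep : Ω → SD G := fun q => ι G (Quotient.out q)
  let S : Finset (SD G) := Finset.univ.image rep
  have hS : ∀ s, s ∈ S ↔ ∃ q : Ω, rep q = s := by
    intro s
    simp [S]
  have hout : ∀ v : V, ∃ g : G, (g : V ≃ₗ[ZMod p] V) v = Quotient.out (Quotient.mk _ v : Ω) := by
    intro v
    have h1 : (Quotient.mk _ (Quotient.out (Quotient.mk _ v : Ω)) : Ω) = Quotient.mk _ v :=
      Quotient.out_eq _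
    have h2 := Quotient.exact h1
    obtain ⟨g, hg⟩ := h2
    exact ⟨g, hg⟩
  have hrep : ∀ v ∈ VV G, ∃! s, s ∈ S ∧ ∃ g ∈ GG G, g * v * g⁻¹ = s := by
    intro x hx
    obtain ⟨v, rfl⟩ := (mem_VV G).1 hx
    obtain ⟨g, hg⟩ := hout v
    refine ⟨rep (Quotient.mk _ v), ⟨(hS _).2 ⟨_, rfl⟩, SemidirectProduct.inr g, ⟨g, rfl⟩, ?_⟩, ?_⟩
    · rw [conj_ι, hg]
    · rintro y ⟨hy, _, ⟨k, rfl⟩, hk⟩
      obtain ⟨q, rfl⟩ := (hS _).1 hy
      rw [conj_ι] at hk
      have h3 := ι_inj G hk
      have h4 : (Quotient.mk _ v : Ω) = q := by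
        rw [← Quotient.out_eq q, ← h3]
        apply Quotient.sound
        exact ⟨k⁻¹, by
          change (((k⁻¹ : G) : V ≃ₗ[ZMod p] V)) ((k : V ≃ₗ[ZMod p] V) v) = v
          rw [← LinearEquiv.mul_apply, ← Subgroup.coe_mul, inv_mul_cancel]
          rfl⟩
      rw [h4]
  have hsum := Cfsg.Agent.S4956.result (VV G) (VV_comm G) (GG G) (isCompl G) hcop S (by
    intro s hs
    obtain ⟨q, rfl⟩ := (hS s).1 hs
    exact ι_mem G _) hrep
  -- the trivial representative
  have h1S : (1 : SD G) ∈ S := by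
    obtain ⟨s, ⟨hs, g, hg, hgs⟩, -⟩ := hrep 1 (one_mem _)
    rw [mul_one, mul_inv_cancel] at hgs
    rw [hgs]
    exact hs
  have hone : kc ↥(GG G ⊓ centralizer ({(1 : SD G)} : Set (SD G))) = kc G := by
    have h1 : GG G ⊓ centralizer ({(1 : SD G)} : Set (SD G)) = GG G := by
      rw [inf_eq_left]
      intro x _
      rw [mem_centralizer_iff]
      intro y hy
      rw [Set.mem_singleton_iff.1 hy, one_mul, mul_one]
    rw [h1]
    exact (kc_congr (MonoidHom.ofInjective
      (SemidirectProduct.inr_injective : Function.Injective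
        (SemidirectProduct.inr : G →* SD G)))).symm
  rw [← Finset.add_sum_erase S _ h1S] at hsum
  change Nat.card (ConjClasses (SD G)) = kc ↥(GG G ⊓ centralizer ({(1 : SD G)} : Set (SD G))) +
    ∑ s ∈ S.erase 1, kc ↥(GG G ⊓ centralizer ({s} : Set (SD G))) at hsum
  rw [hone] at hsum
  -- a nontrivial representative
  obtain ⟨v0, hv0⟩ := exists_ne (0 : V)
  obtain ⟨s0, ⟨hs0, g0, hg0, hgs0⟩, -⟩ := hrep (ι G v0) (ι_mem G v0)
  have hs0' : s0 ≠ 1 := by
    intro h1
    rw [h1, mul_inv_eq_one, mul_eq_left] at hgs0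
    exact hv0 (ι_inj G (hgs0.trans (ι_zero G).symm))
  have hs0S : s0 ∈ S.erase 1 := Finset.mem_erase.2 ⟨hs0', hs0⟩
  have hge : (S.erase 1).card ≤
      ∑ s ∈ S.erase 1, kc ↥(GG G ⊓ centralizer ({s} : Set (SD G))) := by
    have := Finset.card_nsmul_le_sum (S.erase 1)
      (fun s => kc ↥(GG G ⊓ centralizer ({s} : Set (SD G)))) 1 (fun s _ => kc_pos _)
    simpa using this
  have hc1 : 1 ≤ (S.erase 1).card := Finset.card_pos.2 ⟨s0, hs0S⟩
  refine ⟨by omega, fun heq => ?_⟩
  have hVpos : 0 < Nat.card V := Nat.card_pos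
  have hle : ∑ s ∈ S.erase 1, kc ↥(GG G ⊓ centralizer ({s} : Set (SD G))) ≤ 1 := by omega
  have hcard : (S.erase 1).card = 1 := by omega
  obtain ⟨s1, hs1⟩ := Finset.card_eq_one.1 hcard
  have hs01 : s0 = s1 := by
    rw [hs1] at hs0S
    exact Finset.mem_singleton.1 hs0S
  subst hs01
  have htriv : GG G ⊓ centralizer ({s0} : Set (SD G)) = ⊥ := by
    apply eq_bot_of_kc_eq_one
    rw [hs1, Finset.sum_singleton] at hle
    exact le_antisymm hle (kc_pos _)
  -- every nonzero vector is conjugate to `s0`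
  have hconj : ∀ v : V, v ≠ 0 → ∃ g : G, ι G ((g : V ≃ₗ[ZMod p] V) v) = s0 := by
    intro v hv
    obtain ⟨s, ⟨hs, _, ⟨g, rfl⟩, hgs⟩, -⟩ := hrep (ι G v) (ι_mem G v)
    have hs' : s ≠ 1 := by
      intro h1
      rw [h1, mul_inv_eq_one, mul_eq_left] at hgs
      exact hv (ι_inj G (hgs.trans (ι_zero G).symm))
    have h2 : s ∈ S.erase 1 := Finset.mem_erase.2 ⟨hs', hs⟩
    rw [hs1] at h2
    refine ⟨g, ?_⟩
    rw [← conj_ι, hgs]
    exact Finset.mem_singleton.1 h2
  refine ⟨fun v hv w hw => ?_, fun g hg v hv hgv => ?_⟩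
  · obtain ⟨a, ha⟩ := hconj v hv
    obtain ⟨b, hb⟩ := hconj w hw
    refine ⟨(b : V ≃ₗ[ZMod p] V)⁻¹ * a, G.mul_mem (G.inv_mem b.2) a.2, ?_⟩
    have h1 := ι_inj G (ha.trans hb.symm)
    change (b : V ≃ₗ[ZMod p] V).symm ((a : V ≃ₗ[ZMod p] V) v) = w
    rw [LinearEquiv.symm_apply_eq]
    exact h1
  · obtain ⟨a, ha⟩ := hconj v hv
    have h0 : ((a * ⟨g, hg⟩ * a⁻¹ : G) : V ≃ₗ[ZMod p] V) ((a : V ≃ₗ[ZMod p] V) v) =
        (a : V ≃ₗ[ZMod p] V) v := by
      have h3 : ((a * ⟨g, hg⟩ * a⁻¹ : G) : V ≃ₗ[ZMod p] V) * (a : V ≃ₗ[ZMod p] V) =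
          (a : V ≃ₗ[ZMod p] V) * g := by
        rw [Subgroup.coe_mul, Subgroup.coe_mul, Subgroup.coe_inv, inv_mul_cancel_right]
      have h4 := congrArg (fun f : V ≃ₗ[ZMod p] V => f v) h3
      simp only [LinearEquiv.mul_apply] at h4
      rw [h4, hgv]
    have h1 : (SemidirectProduct.inr (a * ⟨g, hg⟩ * a⁻¹) : SD G) ∈
        GG G ⊓ centralizer ({s0} : Set (SD G)) := by
      rw [← ha]
      exact ⟨⟨_, rfl⟩, comm_of_fix G _ _ h0⟩
    rw [htriv, mem_bot] at h1
    have h2 : a * ⟨g, hg⟩ * a⁻¹ = 1 := SemidirectProduct.inr_injective (h1.trans (map_one _).symm)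
    rw [mul_inv_eq_one, mul_eq_left] at h2
    exact congrArg Subtype.val h2

theorem rv_bd (G : Subgroup (V ≃ₗ[ZMod p] V)) (hG : ¬ p ∣ Nat.card G) (h : RV G) :
    kc G ≤ Nat.card V - 1 ∧ (kc G = Nat.card V - 1 → Reg G) :=
  bd_of_le G hG (card_le G hG h)

end Cfsg.Agent.H354.KGL.T1
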